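import Cfsg.Agent.H419.EP.Iface

/-!
# S3499: two criteria (helper567)

* `P1` : `N_A(A ∩ A^x) = A ∩ A^x` for `x ∉ A`, in the preimage;
* `T1` : a normal `p`-subgroup of `Â` meets `Â^x` only in scalars.
-/

set_option autoImplicit false

namespace Cfsg.Agent.H567.EP

open Subgroup Cfsg.Agent.H284 Cfsg.Agent.H419.EP
open scoped MatrixGroups

variable {Q : Type*} [Group Q] {A : Subgroup Q} {Γ : Subgroup (MulAut Q)}

/-- `N_A(A ∩ A^x) = A ∩ A^x` -/
theorem norm_M0 (h : EPT A Γ) {x : Q} (hx : x ∉ A) {a : Q} (ha : a ∈ A)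
    (hn : ∀ k, k ∈ A → x⁻¹ * k * x ∈ A → x⁻¹ * (a * k * a⁻¹) * x ∈ A) : x⁻¹ * a * x ∈ A := by
  have h1 := h.norm_aut hx (K := A ⊓ cj x A) le_rfl (fun σ hσ => hσ) (h.M0 x hx) ha (by
    intro k hk
    refine ⟨A.mul_mem (A.mul_mem ha (mem_inf.1 hk).1) (A.inv_mem ha), ?_⟩
    exact mem_cj.2 (hn k (mem_inf.1 hk).1 (mem_cj.1 (mem_inf.1 hk).2)))
  exact mem_cj.1 h1

section

variable {ι : Type} [Fintype ι] [DecidableEq ι] {F : Type*} [Field F] {S : Subgroup (GL ι F)}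

/-- **(P1)** -/
theorem P1 (h : EPT A Γ) (m : Model Q S) {x t : GL ι F} (hxS : x ∈ S) (hx : x ∉ m.hat A) (ht : t ∈ m.hat A)
    (hn : ∀ g, g ∈ m.hat A → x⁻¹ * g * x ∈ m.hat A → x⁻¹ * (t * g * t⁻¹) * x ∈ m.hat A) :
    x⁻¹ * t * x ∈ m.hat A := by
  have htS := m.hat_le A ht
  have key : ∀ g : S, (x⁻¹ * (g : GL ι F) * x ∈ m.hat A ↔
      (m.π ⟨x, hxS⟩)⁻¹ * m.π g * m.π ⟨x, hxS⟩ ∈ A) := by
    intro g
    rw [← map_inv, ← map_mul, ← map_mul, ← m.mem_hat_iff, Subgroup.coe_mul, Subgroup.coe_mul, Subgroup.coe_inv]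
  have hx' : m.π ⟨x, hxS⟩ ∉ A := fun e => hx ((m.mem_hat_iff ⟨x, hxS⟩).2 e)
  have ha : m.π ⟨t, htS⟩ ∈ A := (m.mem_hat_iff ⟨t, htS⟩).1 ht
  refine (key ⟨t, htS⟩).2 (norm_M0 h hx' ha ?_)
  intro k hk hk'
  obtain ⟨g, rfl⟩ := m.surj k
  have h1 := hn g ((m.mem_hat_iff g).2 hk) ((key g).2 hk')
  have h2 := key (⟨t, htS⟩ * g * (⟨t, htS⟩ : S)⁻¹)
  rw [map_mul, map_mul, map_inv, Subgroup.coe_mul, Subgroup.coe_mul, Subgroup.coe_inv] at h2
  exact h2.1 h1

end

section pcore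

variable [Finite Q]

/-- a normal `p`-subgroup of `A` meets `A^x` trivially -/
theorem normal_inf (h : EPT A Γ) {p : ℕ} (hp : p.Prime) {N : Subgroup Q} (hN : N ≤ A) (hNp : IsPGroup p N)
    (hNn : ∀ a ∈ A, ∀ k ∈ N, a * k * a⁻¹ ∈ N) {x : Q} (hx : x ∉ A) {z : Q} (hz : z ∈ N) (hzx : z ∈ cj x A) :
    z = 1 := by
  classical
  have := Fact.mk hp
  by_contra hz1
  -- the intersection of the Sylow subgroups of `A`
  let C : Subgroup A := ⨅ P : Sylow p A, (P : Subgroup A)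
  have hC : ∀ φ : MulAut A, ∀ a, a ∈ C → φ a ∈ C := by
    intro φ a ha
    rw [Subgroup.mem_iInf] at ha ⊢
    intro P
    have hb : a ∈ ((P : Subgroup A).comap φ.toMonoidHom : Subgroup A) := by
      have hP1 : IsPGroup p ((P : Subgroup A).comap φ.toMonoidHom : Subgroup A) :=
        P.isPGroup'.comap_of_injective _ φ.injective
      have hcard : Nat.card ((P : Subgroup A).comap φ.toMonoidHom : Subgroup A) = Nat.card P := by
        have e1 : ((P : Subgroup A).comap φ.toMonoidHom : Subgroup A) = (P : Subgroup A).map φ.symm.toMonoidHom := by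
          exact (Subgroup.map_equiv_eq_comap_symm φ.symm _).symm
        rw [e1]
        exact Nat.card_congr (Subgroup.equivMapOfInjective _ _ φ.symm.injective).toEquiv.symm
      obtain ⟨P', hP'⟩ := hP1.exists_le_sylow
      have h3 : Nat.card P' = Nat.card P := by
        rw [P'.card_eq_multiplicity, P.card_eq_multiplicity]
      have h4 : ((P : Subgroup A).comap φ.toMonoidHom : Subgroup A) = P' := by
        apply Subgroup.eq_of_le_of_card_ge hP'
        rw [hcard]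
        exact h3.le
      rw [h4]
      exact ha P'
    exact hb
  have hNC : ∀ k (hk : k ∈ N), (⟨k, hN hk⟩ : A) ∈ C := by
    intro k hk
    rw [Subgroup.mem_iInf]
    intro P
    have hnorm : (N.subgroupOf A).Normal := by
      refine ⟨fun k' hk' g => ?_⟩
      exact hNn g g.2 k' hk'
    have hp1 : IsPGroup p (N.subgroupOf A) :=
      hNp.comap_of_injective A.subtype A.subtype_injective
    have h5 : N.subgroupOf A ≤ P := by
      have h6 : IsPGroup p ((P : Subgroup A) ⊔ N.subgroupOf A : Subgroup A) := P.isPGroup'.to_sup_of_normal_right hp1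
      have h7 : (P : Subgroup A) = (P : Subgroup A) ⊔ N.subgroupOf A := by
        exact (P.is_maximal' h6 le_sup_left).symm
      rw [h7]
      exact le_sup_right
    exact h5 hk
  let K : Subgroup Q := C.map A.subtype
  have hKA : K ≤ A := by
    rintro _ ⟨c, _, rfl⟩
    exact c.2
  have hKinv : ∀ σ ∈ Γ, ∀ k ∈ K, σ k ∈ K := by
    intro σ hσ
    have hσA : ∀ y ∈ A, σ y ∈ A := fun y hy => (h.inv σ hσ y).2 hy
    let f : A →* A := (σ.toMonoidHom.comp A.subtype).codRestrict A (fun y => hσA y y.2)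
    have hf : Function.Injective f := by
      intro y z e
      have e' : σ y = σ z := Subtype.ext_iff.1 e
      exact Subtype.ext (σ.injective e')
    let τ : MulAut A := MulEquiv.ofBijective f (Finite.injective_iff_bijective.1 hf)
    rintro _ ⟨c, hc, rfl⟩
    exact ⟨τ c, hC τ c hc, rfl⟩
  have hCp : IsPGroup p C := by
    obtain ⟨P⟩ : Nonempty (Sylow p A) := inferInstance
    exact P.isPGroup'.to_le (iInf_le _ P)
  have hKp : IsPGroup p K := hCp.map A.subtype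
  have hzK : z ∈ K := ⟨⟨z, hN hz⟩, hNC z hz, rfl⟩
  have hKne : K ≠ ⊥ := by
    intro e
    rw [e, mem_bot] at hzK
    exact hz1 hzK
  have h8 := (h.nilp K hKA hKinv hKp.isNilpotent hKne).2.2.2.1 x hx
  have h9 : z ∈ K ⊓ cj x A := ⟨hzK, hzx⟩
  rw [h8.1, mem_bot] at h9
  exact hz1 h9

variable {ι : Type} [Fintype ι] [DecidableEq ι] {F : Type*} [Field F] {S : Subgroup (GL ι F)}

/-- **(T1)** a normal `p`-subgroup of `Â` meets `Â^x` in scalars -/
theorem T1 (h : EPT A Γ) (m : Model Q S) {p : ℕ} (hp : p.Prime) {N : Subgroup (GL ι F)} (hN : N ≤ m.hat A)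
    (hNp : IsPGroup p N) (hNn : ∀ a ∈ m.hat A, ∀ k ∈ N, a * k * a⁻¹ ∈ N) {x : GL ι F} (hxS : x ∈ S)
    (hx : x ∉ m.hat A) {z : GL ι F} (hz : z ∈ N) (hzx : x⁻¹ * z * x ∈ m.hat A) : z ∈ Cfsg.Geo.scalars ι F := by
  have hNS : N ≤ S := hN.trans (m.hat_le A)
  have hx' : m.π ⟨x, hxS⟩ ∉ A := fun e => hx ((m.mem_hat_iff ⟨x, hxS⟩).2 e)
  have hzS : z ∈ S := hNS hz
  rw [← m.ker ⟨z, hzS⟩]
  refine normal_inf h hp (N := (N.subgroupOf S).map m.π) ?_ ?_ ?_ hx' ⟨⟨z, hzS⟩, hz, rfl⟩ ?_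
  · rintro _ ⟨k, hk, rfl⟩
    exact (m.mem_hat_iff k).1 (hN hk)
  · exact (hNp.comap_of_injective S.subtype S.subtype_injective).map m.π
  · rintro a ha _ ⟨k, hk, rfl⟩
    obtain ⟨g, rfl⟩ := m.surj a
    refine ⟨g * k * g⁻¹, hNn g ((m.mem_hat_iff g).2 ha) k hk, ?_⟩
    rw [map_mul, map_mul, map_inv]
  · rw [mem_cj, ← map_inv, ← map_mul, ← map_mul, ← m.mem_hat_iff, Subgroup.coe_mul, Subgroup.coe_mul,
      Subgroup.coe_inv]
    exact hzx

end pcore

end Cfsg.Agent.H567.EP
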