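import Cfsg.Agent.H567.EP.Core

/-!
# S3499: the criteria `P1`, `T1` for an arbitrary surjection `π : S → Q` (helper567)
-/

set_option autoImplicit false

namespace Cfsg.Agent.H567.EP

open Subgroup Cfsg.Agent.H284 Cfsg.Agent.H419.EP

variable {Q : Type*} [Group Q] {A : Subgroup Q} {Γ : Subgroup (MulAut Q)}
variable {G : Type*} [Group G] {S : Subgroup G}

/-- the preimage of `A` -/
def pre (π : S →* Q) (A : Subgroup Q) : Subgroup G := (A.comap π).map S.subtype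

theorem mem_pre {π : S →* Q} {g : G} : g ∈ pre π A ↔ ∃ hg : g ∈ S, π ⟨g, hg⟩ ∈ A := by
  constructor
  · rintro ⟨s, hs, rfl⟩
    exact ⟨s.2, hs⟩
  · rintro ⟨hg, h⟩
    exact ⟨⟨g, hg⟩, h, rfl⟩

theorem mem_pre_iff {π : S →* Q} (s : S) : (s : G) ∈ pre π A ↔ π s ∈ A := by
  rw [mem_pre]
  constructor
  · rintro ⟨_, h⟩
    exact h
  · intro h
    exact ⟨s.2, h⟩

theorem pre_le {π : S →* Q} : pre π A ≤ S := by
  intro g hg
  exact (mem_pre.1 hg).1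

/-- maximality of the preimage -/
theorem pre_max {π : S →* Q} (hπ : Function.Surjective π) (hA : IsCoatom A) {L : Subgroup G} (h1 : pre π A ≤ L)
    (h2 : L ≤ S) : L ≤ pre π A ∨ S ≤ L := by
  have h3 : A ≤ (L.subgroupOf S).map π := by
    intro a ha
    obtain ⟨s, rfl⟩ := hπ a
    exact ⟨s, h1 ((mem_pre_iff s).2 ha), rfl⟩
  by_cases h4 : (L.subgroupOf S).map π = A
  · left
    intro g hg
    refine mem_pre.2 ⟨h2 hg, ?_⟩
    rw [← h4]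
    exact ⟨⟨g, h2 hg⟩, hg, rfl⟩
  · right
    have h5 := hA.2 _ (lt_of_le_of_ne h3 (Ne.symm h4))
    intro g hg
    have h6 : π ⟨g, hg⟩ ∈ (L.subgroupOf S).map π := by rw [h5]; exact mem_top _
    obtain ⟨l, hl, e⟩ := h6
    have h7 : π (l⁻¹ * ⟨g, hg⟩) = 1 := by rw [map_mul, map_inv, e, inv_mul_cancel]
    have h8 : ((l⁻¹ * ⟨g, hg⟩ : S) : G) ∈ pre π A := by
      rw [mem_pre_iff, h7]
      exact A.one_mem
    have h9 := L.mul_mem hl (h1 h8)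
    have e9 : ((L.subtype ⟨l, hl⟩ : G)) * ((l⁻¹ * ⟨g, hg⟩ : S) : G) = g := by
      rw [Subgroup.coe_mul, Subgroup.coe_inv]
      exact mul_inv_cancel_left _ _
    rw [← e9]
    exact h9

/-- **(P1)** -/
theorem P1' (h : EPT A Γ) {π : S →* Q} (hπ : Function.Surjective π) {x t : G} (hxS : x ∈ S) (hx : x ∉ pre π A)
    (ht : t ∈ pre π A)
    (hn : ∀ g, g ∈ pre π A → x⁻¹ * g * x ∈ pre π A → x⁻¹ * (t * g * t⁻¹) * x ∈ pre π A) :
    x⁻¹ * t * x ∈ pre π A := by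
  have htS := pre_le ht
  have key : ∀ g : S, (x⁻¹ * (g : G) * x ∈ pre π A ↔
      (π ⟨x, hxS⟩)⁻¹ * π g * π ⟨x, hxS⟩ ∈ A) := by
    intro g
    rw [← map_inv, ← map_mul, ← map_mul, ← mem_pre_iff, Subgroup.coe_mul, Subgroup.coe_mul, Subgroup.coe_inv]
  have hx' : π ⟨x, hxS⟩ ∉ A := fun e => hx ((mem_pre_iff ⟨x, hxS⟩).2 e)
  have ha : π ⟨t, htS⟩ ∈ A := (mem_pre_iff ⟨t, htS⟩).1 ht
  refine (key ⟨t, htS⟩).2 (norm_M0 h hx' ha ?_)
  intro k hk hk'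
  obtain ⟨g, rfl⟩ := hπ k
  have h1 := hn g ((mem_pre_iff g).2 hk) ((key g).2 hk')
  have h2 := key (⟨t, htS⟩ * g * (⟨t, htS⟩ : S)⁻¹)
  rw [map_mul, map_mul, map_inv, Subgroup.coe_mul, Subgroup.coe_mul, Subgroup.coe_inv] at h2
  exact h2.1 h1

/-- **(T1)** -/
theorem T1' [Finite Q] (h : EPT A Γ) {π : S →* Q} (hπ : Function.Surjective π) {p : ℕ} (hp : p.Prime)
    {N : Subgroup G} (hN : N ≤ pre π A)
    (hNp : IsPGroup p N) (hNn : ∀ a ∈ pre π A, ∀ k ∈ N, a * k * a⁻¹ ∈ N) {x : G} (hxS : x ∈ S)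
    (hx : x ∉ pre π A) {z : S} (hz : (z : G) ∈ N) (hzx : x⁻¹ * z * x ∈ pre π A) : π z = 1 := by
  have hx' : π ⟨x, hxS⟩ ∉ A := fun e => hx ((mem_pre_iff ⟨x, hxS⟩).2 e)
  refine normal_inf h hp (N := (N.subgroupOf S).map π) ?_ ?_ ?_ hx' ⟨z, hz, rfl⟩ ?_
  · rintro _ ⟨k, hk, rfl⟩
    exact (mem_pre_iff k).1 (hN hk)
  · exact (hNp.comap_of_injective S.subtype S.subtype_injective).map π
  · rintro a ha _ ⟨k, hk, rfl⟩
    obtain ⟨g, rfl⟩ := hπ a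
    refine ⟨g * k * g⁻¹, hNn g ((mem_pre_iff g).2 ha) k hk, ?_⟩
    rw [map_mul, map_mul, map_inv]
  · rw [mem_cj, ← map_inv, ← map_mul, ← map_mul, ← mem_pre_iff, Subgroup.coe_mul, Subgroup.coe_mul,
      Subgroup.coe_inv]
    exact hzx

end Cfsg.Agent.H567.EP
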