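import Cfsg.Agent.H567.EP.Gen
import Cfsg.Agent.H883.Sub
import Cfsg.Agent.ClassicalGeometry.OrthAut1
import Cfsg.Agent.ClassicalGeometry.Discriminant

/-!
# S3499, orthogonal groups: the criteria for stabilisers of subspaces; tools (helper567)
-/

set_option autoImplicit false
set_option linter.unusedSectionVars false

namespace Cfsg.Agent.H567.EP

open QuadraticMap Cfsg.Agent.LieClassical.OrthCore Cfsg.Agent.LieClassical.OrthTrans
  Cfsg.Agent.LieClassical.OrthFinite Cfsg.Agent.H883.Sub Cfsg.Agent.H284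

variable {F V : Type*} [Field F] [AddCommGroup V] [Module F V] [FiniteDimensional F V] {Q : QuadraticForm F V}

section stab

theorem inv_stab {W : Submodule F V} {g : V ≃ₗ[F] V} (h : ∀ w ∈ W, g w ∈ W) : ∀ w ∈ W, g⁻¹ w ∈ W := by
  have h1 := Cfsg.Agent.H883.Bridge.mem_stab_of_le h
  intro w hw
  have h2 : g (g⁻¹ w) = w := LinearEquiv.apply_symm_apply g w
  rw [h1 (g⁻¹ w), h2]
  exact hw

theorem perp_stab {W : Submodule F V} {g : V ≃ₗ[F] V} (hg : g ∈ O Q) (h : ∀ w ∈ W, g w ∈ W) :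
    ∀ v ∈ perp Q W, g v ∈ perp Q W := by
  intro v hv
  rw [mem_perp]
  intro w hw
  have h2 : g (g⁻¹ w) = w := LinearEquiv.apply_symm_apply g w
  rw [← h2, polar_map hg]
  exact mem_perp.1 hv _ (inv_stab h w hw)

variable {T : Type*} [Group T] {A : Subgroup T} {Γ : Subgroup (MulAut T)} {π : E Q →* T}

/-- the preimage of `A` is the stabiliser of `W` in `E Q` -/
def IsStab (π : E Q →* T) (A : Subgroup T) (W : Submodule F V) : Prop :=
  ∀ g ∈ E Q, (g ∈ pre π A ↔ ∀ w ∈ W, g w ∈ W)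

theorem IsStab.perp (hQ : Nondeg Q) {W : Submodule F V} (hS : IsStab π A W) : IsStab π A (perp Q W) := by
  intro g hg
  rw [hS g hg]
  constructor
  · exact perp_stab (E_le_O hg)
  · intro h
    have := perp_stab (E_le_O hg) h
    rwa [perp_perp hQ] at this

/-- **(P1)** for the stabiliser of a subspace -/
theorem P1W (h : EPT A Γ) (hπ : Function.Surjective π) {W : Submodule F V} (hS : IsStab π A W) {x t : V ≃ₗ[F] V}
    (hx : x ∈ E Q) (ht : t ∈ E Q) (hxW : ∃ w ∈ W, x w ∉ W) (htW : ∀ w ∈ W, t w ∈ W)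
    (hn : ∀ g ∈ E Q, (∀ w ∈ W, g w ∈ W) → (∀ w ∈ W, ∃ w' ∈ W, g (x w) = x w') →
      ∀ w ∈ W, ∃ w' ∈ W, g (t (x w)) = t (x w')) : ∀ w ∈ W, ∃ w' ∈ W, t (x w) = x w' := by
  have hxA : x ∉ pre π A := by
    intro e
    obtain ⟨w, hw, h1⟩ := hxW
    exact h1 ((hS x hx).1 e w hw)
  have htA : t ∈ pre π A := (hS t ht).2 htW
  have hcj : ∀ g ∈ E Q, (x⁻¹ * g * x ∈ pre π A ↔ ∀ w ∈ W, ∃ w' ∈ W, g (x w) = x w') := by
    intro g hg
    rw [hS _ ((E Q).mul_mem ((E Q).mul_mem ((E Q).inv_mem hx) hg) hx)]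
    constructor
    · intro h1 w hw
      exact ⟨_, h1 w hw, (LinearEquiv.apply_symm_apply x (g (x w))).symm⟩
    · intro h1 w hw
      obtain ⟨w', hw', e⟩ := h1 w hw
      have e2 : (x⁻¹ * g * x) w = w' := by
        show x.symm (g (x w)) = w'
        rw [e, LinearEquiv.symm_apply_apply]
      rw [e2]
      exact hw'
  have h1 := P1' h hπ hx hxA ((pre π A).inv_mem htA) (by
    intro g hg hg'
    have hgE := pre_le hg
    have h2 := hn g hgE ((hS g hgE).1 hg) ((hcj g hgE).1 hg')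
    rw [hcj _ ((E Q).mul_mem ((E Q).mul_mem ((E Q).inv_mem ht) hgE) ((E Q).inv_mem ((E Q).inv_mem ht)))]
    intro w hw
    obtain ⟨w', hw', e⟩ := h2 w hw
    refine ⟨w', hw', ?_⟩
    show t.symm (g (t (x w))) = x w'
    rw [e, LinearEquiv.symm_apply_apply])
  have h2 := (pre π A).inv_mem h1
  have e3 : (x⁻¹ * t⁻¹ * x)⁻¹ = x⁻¹ * t * x := by group
  rw [e3, hcj t ht] at h2
  exact h2

/-- **(T1)** for the stabiliser of a subspace -/
theorem T1W [Finite T] (h : EPT A Γ) (hπ : Function.Surjective π)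
    (hk : ∀ s : E Q, π s = 1 → ∃ c : F, ∀ v, (s : V ≃ₗ[F] V) v = c • v) {W : Submodule F V} (hS : IsStab π A W)
    {p : ℕ} (hp : p.Prime) {N : Subgroup (V ≃ₗ[F] V)} (hNE : N ≤ E Q) (hNW : ∀ g ∈ N, ∀ w ∈ W, g w ∈ W)
    (hNp : IsPGroup p N) (hNn : ∀ a ∈ E Q, (∀ w ∈ W, a w ∈ W) → ∀ k ∈ N, a * k * a⁻¹ ∈ N) {x : V ≃ₗ[F] V}
    (hx : x ∈ E Q) (hxW : ∃ w ∈ W, x w ∉ W) {z : V ≃ₗ[F] V} (hz : z ∈ N)
    (hzx : ∀ w ∈ W, z (x w) = x w) : ∃ c : F, ∀ v, z v = c • v := by
  have hxA : x ∉ pre π A := by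
    intro e
    obtain ⟨w, hw, h1⟩ := hxW
    exact h1 ((hS x hx).1 e w hw)
  refine hk ⟨z, hNE hz⟩ (T1' h hπ hp (N := N) ?_ hNp ?_ hx hxA (z := ⟨z, hNE hz⟩) hz ?_)
  · intro g hg
    exact (hS g (hNE hg)).2 (hNW g hg)
  · intro a ha k hk'
    exact hNn a (pre_le ha) ((hS a (pre_le ha)).1 ha) k hk'
  · refine (hS _ ((E Q).mul_mem ((E Q).mul_mem ((E Q).inv_mem hx) (hNE hz)) hx)).2 ?_
    intro w hw
    show x.symm (z (x w)) ∈ W
    rw [hzx w hw, LinearEquiv.symm_apply_apply]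
    exact hw

end stab

section tools

theorem nd_split {W : Submodule F V} (hW : NondegOn Q W) {a a' y y' : V} (ha : a ∈ W) (ha' : a' ∈ W)
    (hy : y ∈ perp Q W) (hy' : y' ∈ perp Q W) (e : a + y = a' + y') : a = a' ∧ y = y' := by
  have e1 : a - a' = y' - y := by
    rw [sub_eq_sub_iff_add_eq_add, e, add_comm]
  have h1 : a - a' = 0 := by
    apply hW _ (W.sub_mem ha ha')
    intro z hz
    rw [e1]
    exact mem_perp'.1 ((perp Q W).sub_mem hy' hy) z hz
  have h2 : a = a' := sub_eq_zero.1 h1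
  refine ⟨h2, ?_⟩
  rw [h2] at e
  exact add_left_cancel e

theorem exists_hyp_in {U : Submodule F V} (hU : NondegOn Q U) {u : V} (huU : u ∈ U) (hu0 : u ≠ 0) (hu : Q u = 0) :
    ∃ u' ∈ U, Hyp Q u u' := by
  obtain ⟨y, hyU, hy⟩ := hU.exists_polar_eq huU hu0 1
  refine ⟨y + (-Q y) • u, U.add_mem hyU (U.smul_mem _ huU), hu, ?_, ?_⟩
  · rw [Q_add, QuadraticMap.map_smul, hu, polar_smul_right, polar_comm Q y u, hy]
    simp
  · rw [polar_add_right, polar_smul_right, polar_self_of_sing hu, hy]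
    simp

/-- the complement of a hyperbolic pair in `U` -/
theorem nondegOn_compl {U : Submodule F V} (hU : NondegOn Q U) {e f : V} (he : e ∈ U) (hf : f ∈ U) (h : Hyp Q e f) :
    NondegOn Q (U ⊓ perp Q (Submodule.span F {e, f})) := by
  have hmem : ∀ v, v ∈ perp Q (Submodule.span F {e, f}) ↔ polar Q e v = 0 ∧ polar Q f v = 0 := by
    intro v
    rw [mem_perp]
    constructor
    · intro h1
      exact ⟨h1 e (Submodule.subset_span (by simp)), h1 f (Submodule.subset_span (by simp))⟩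
    · rintro ⟨h1, h2⟩ w hw
      obtain ⟨a, b, rfl⟩ := Submodule.mem_span_pair.1 hw
      rw [polar_add_left, polar_smul_left, polar_smul_left, h1, h2, smul_zero, smul_zero, add_zero]
  intro y hy hy'
  obtain ⟨h1, h2⟩ := (hmem y).1 hy.2
  apply hU y hy.1
  intro z hz
  have h3 := hy' (Cfsg.Agent.LieClassical.OrthTrans.proj Q e f z) ⟨U.sub_mem (U.sub_mem hz (U.smul_mem _ he)) (U.smul_mem _ hf),
    (hmem _).2 ⟨polar_proj_left h z, polar_proj_right h z⟩⟩
  rw [polar_comm] at h3 ⊢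
  rw [Cfsg.Agent.LieClassical.OrthTrans.proj, polar_sub_left, polar_sub_left, polar_smul_left, polar_smul_left, h1, h2, smul_zero, smul_zero, sub_zero,
    sub_zero] at h3
  exact h3

theorem mem_compl {U : Submodule F V} {e f v : V} : v ∈ U ⊓ perp Q (Submodule.span F {e, f}) ↔
    v ∈ U ∧ polar Q e v = 0 ∧ polar Q f v = 0 := by
  rw [Submodule.mem_inf]
  apply and_congr_right
  intro _
  rw [mem_perp]
  constructor
  · intro h1
    exact ⟨h1 e (Submodule.subset_span (by simp)), h1 f (Submodule.subset_span (by simp))⟩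
  · rintro ⟨h1, h2⟩ w hw
    obtain ⟨a, b, rfl⟩ := Submodule.mem_span_pair.1 hw
    rw [polar_add_left, polar_smul_left, polar_smul_left, h1, h2, smul_zero, smul_zero, add_zero]

theorem finrank_inf_perp_span (hQ : Nondeg Q) (U : Submodule F V) (e f : V) :
    Module.finrank F U ≤ Module.finrank F (U ⊓ perp Q (Submodule.span F {e, f}) : Submodule F V) + 2 := by
  have h1 := finrank_perp hQ (Submodule.span F {e, f})
  have h2 := Submodule.finrank_sup_add_finrank_inf_eq U (perp Q (Submodule.span F {e, f}))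
  have h3 : Module.finrank F (U ⊔ perp Q (Submodule.span F {e, f}) : Submodule F V) ≤ Module.finrank F V :=
    Submodule.finrank_le _
  have h4 : Module.finrank F (Submodule.span F {e, f}) ≤ 2 := by
    classical
    have h5 := finrank_span_finset_le_card (R := F) (M := V) ({e, f} : Finset V)
    have h6 : ({e, f} : Finset V).card ≤ 2 := Finset.card_le_two
    have h7 : ((({e, f} : Finset V) : Set V)) = {e, f} := by simp
    rw [Set.finrank, h7] at h5
    omega
  omega

theorem exists_nonsing_in {Y : Submodule F V} (hY : NondegOn Q Y) (h0 : Y ≠ ⊥) : ∃ v ∈ Y, Q v ≠ 0 := by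
  by_contra hcon
  push Not at hcon
  obtain ⟨x, hx, hx0⟩ := Submodule.exists_mem_ne_zero_of_ne_bot h0
  apply hx0
  apply hY x hx
  intro y hy
  rw [polar, hcon _ (Y.add_mem hx hy), hcon _ hx, hcon _ hy]
  simp

/-- every value is taken in dimension at least two, odd characteristic -/
theorem exists_val [Finite F] (h2 : (2 : F) ≠ 0) {Y : Submodule F V} (hY : NondegOn Q Y) (hd : 2 ≤ Module.finrank F Y)
    (c : F) : ∃ v ∈ Y, Q v = c := by
  let B : LinearMap.BilinForm F Y := (polarBilin Q).domRestrict₁₂ Y Y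
  have hB : ∀ x y : Y, B x y = polar Q x y := fun x y => rfl
  have hsymm : LinearMap.BilinForm.IsSymm B := ⟨fun x y => by
    change B x y = B y x
    rw [hB, hB]
    exact polar_comm _ _ _⟩
  have hBn : B.Nondegenerate := by
    constructor
    · intro x hx
      apply Subtype.ext
      apply hY x x.2
      intro y hy
      exact hx ⟨y, hy⟩
    · intro x hx
      apply Subtype.ext
      apply hY x x.2
      intro y hy
      rw [polar_comm]
      exact hx ⟨y, hy⟩
  obtain ⟨x, hx⟩ := Cfsg.Agent.ClassicalGeometry.Discriminant.exists_value h2 B hsymm hBn hd (2 * c)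
  refine ⟨x, x.2, ?_⟩
  rw [hB, polar_self'] at hx
  exact mul_left_cancel₀ h2 hx

end tools

end Cfsg.Agent.H567.EP
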